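import Cfsg.Agent.H39.SmithTyrer.Defs

/-!
# The central extension by a group of order `p`

From two homomorphisms `π₁ π₂` of the abelian Sylow subgroup `P` onto `ZMod p`, jointly surjective,
the cup product `γ(x,y) = ∑_q π₁(v(x,yq)) π₂(v(y,q))` of the two transfer cocycles is a 2-cocycle
whose commutator form on `P` is `|G:P|` times the determinant of `(π₁, π₂)`.
-/

set_option autoImplicit false

namespace Cfsg.Agent.H50.SmithTyrer

open Cfsg.Agent.H39.SmithTyrer

universe u

/-- The extension of `G` by `ZMod p` given by a normalised 2-cocycle. -/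
structure Cocycle (G : Type u) [Group G] (p : ℕ) where
  toFun : G → G → ZMod p
  assoc : ∀ x y z, toFun (x * y) z + toFun x y = toFun y z + toFun x (y * z)
  one_left : ∀ x, toFun 1 x = 0
  one_right : ∀ x, toFun x 1 = 0

/-- The underlying type of the extension. -/
@[ext] structure CExt {G : Type u} [Group G] {p : ℕ} (γ : Cocycle G p) : Type u where
  z : ZMod p
  g : G

namespace CExt

variable {G : Type u} [Group G] {p : ℕ} {γ : Cocycle G p}

instance : Mul (CExt γ) := ⟨fun a b => ⟨a.z + b.z + γ.toFun a.g b.g, a.g * b.g⟩⟩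
instance : One (CExt γ) := ⟨⟨0, 1⟩⟩
instance : Inv (CExt γ) := ⟨fun a => ⟨-a.z - γ.toFun a.g⁻¹ a.g, a.g⁻¹⟩⟩

@[simp] theorem mul_z (a b : CExt γ) : (a * b).z = a.z + b.z + γ.toFun a.g b.g := rfl
@[simp] theorem mul_g (a b : CExt γ) : (a * b).g = a.g * b.g := rfl
@[simp] theorem one_z : (1 : CExt γ).z = 0 := rfl
@[simp] theorem one_g : (1 : CExt γ).g = 1 := rfl
@[simp] theorem inv_z (a : CExt γ) : a⁻¹.z = -a.z - γ.toFun a.g⁻¹ a.g := rfl
@[simp] theorem inv_g (a : CExt γ) : a⁻¹.g = a.g⁻¹ := rfl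

instance : Group (CExt γ) :=
  Group.ofLeftAxioms
    (fun a b c => by
      ext
      · simp only [mul_z, mul_g]
        linear_combination γ.assoc a.g b.g c.g
      · simp [mul_assoc])
    (fun a => by ext <;> simp [γ.one_left])
    (fun a => by
      ext
      · simp only [mul_z, inv_z, inv_g, one_z]; ring
      · simp)

/-- The projection. -/
def proj (γ : Cocycle G p) : CExt γ →* G where
  toFun a := a.g
  map_one' := rfl
  map_mul' _ _ := rfl

@[simp] theorem proj_apply (a : CExt γ) : proj γ a = a.g := rfl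

theorem comm_iff (a b : CExt γ) (h : a.g * b.g = b.g * a.g) :
    a * b = b * a ↔ γ.toFun a.g b.g = γ.toFun b.g a.g := by
  constructor
  · intro e
    have := congrArg CExt.z e
    simp only [mul_z] at this
    linear_combination this
  · intro e
    ext
    · simp only [mul_z]
      linear_combination e
    · simpa using h

end CExt

/-- The algebraic identity behind the commutator formula. -/
theorem sum_shift_sub {X k : Type*} [Fintype X] [CommRing k] (A B : Equiv.Perm X)
    (hAB : ∀ q, A (B q) = B (A q)) (s t : X → k) (u₁ u₂ w₁ w₂ : k) :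
    (∑ q, (u₁ + s (B q) - s (A (B q))) * (w₂ + t q - t (B q))) -
        ∑ q, (w₁ + s (A q) - s (B (A q))) * (u₂ + t q - t (A q)) =
      (Fintype.card X : k) * (u₁ * w₂ - w₁ * u₂) := by
  have key : ∀ (A B : Equiv.Perm X) (u w : k),
      ∑ q, (u + s (B q) - s (A (B q))) * (w + t q - t (B q)) =
        (Fintype.card X : k) * (u * w) + ∑ q, s (B q) * t q + ∑ q, s (A q) * t q
          - ∑ q, s q * t q - ∑ q, s (A (B q)) * t q := by
    intro A B u w
    have e1 : ∀ q, (u + s (B q) - s (A (B q))) * (w + t q - t (B q)) =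
        u * w + (u * t q - u * t (B q)) + (s (B q) * w - s (A (B q)) * w)
          + s (B q) * t q + s (A (B q)) * t (B q) - s (B q) * t (B q) - s (A (B q)) * t q := by
      intro q; ring
    simp only [e1, Finset.sum_add_distrib, Finset.sum_sub_distrib]
    rw [Equiv.sum_comp B (fun q => u * t q), Equiv.sum_comp B (fun q => s q * w),
      show (∑ q, s (A (B q)) * w) = ∑ q, s q * w from
        Equiv.sum_comp (B.trans A) (fun q => s q * w),
      Equiv.sum_comp B (fun q => s q * t q), Equiv.sum_comp B (fun q => s (A q) * t q)]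
    simp only [Finset.sum_const, Finset.card_univ, nsmul_eq_mul]
    ring
  rw [key A B u₁ w₂, key B A w₁ u₂]
  simp only [hAB]
  ring

variable {G : Type u} [Group G] [Finite G] {p : ℕ}

section Transfer

variable (D : Setup G p)

/-- The transfer cocycle with values in the Sylow subgroup. -/
noncomputable def vv (x : G) (q : G ⧸ (D.P : Subgroup G)) : ↥(D.P : Subgroup G) :=
  ⟨(x • q).out⁻¹ * x * q.out, by
    have h : (((x • q).out : G) : G ⧸ (D.P : Subgroup G)) = ((x * q.out : G) : G ⧸ _) := by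
      rw [QuotientGroup.out_eq']
      conv_lhs => rw [← QuotientGroup.out_eq' q]
      rfl
    rw [mul_assoc]
    exact QuotientGroup.eq.mp h⟩

/-- The transfer cocycle followed by a homomorphism to `ZMod p`. -/
noncomputable def cc (f : ↥(D.P : Subgroup G) →* Multiplicative (ZMod p)) (x : G)
    (q : G ⧸ (D.P : Subgroup G)) : ZMod p :=
  Multiplicative.toAdd (f (vv D x q))

theorem cc_mul (f : ↥(D.P : Subgroup G) →* Multiplicative (ZMod p)) (x y : G)
    (q : G ⧸ (D.P : Subgroup G)) : cc D f (x * y) q = cc D f x (y • q) + cc D f y q := by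
  unfold cc
  rw [← toAdd_mul, ← map_mul]
  congr 2
  apply Subtype.ext
  simp only [vv, Subgroup.coe_mul, mul_smul]
  group

theorem cc_one (f : ↥(D.P : Subgroup G) →* Multiplicative (ZMod p))
    (q : G ⧸ (D.P : Subgroup G)) : cc D f 1 q = 0 := by
  have h := cc_mul D f 1 1 q
  rw [one_mul, one_smul] at h
  linear_combination -h

variable [Fintype (G ⧸ (D.P : Subgroup G))]

/-- The cup product of two transfer cocycles. -/
noncomputable def cup (f₁ f₂ : ↥(D.P : Subgroup G) →* Multiplicative (ZMod p)) : Cocycle G p where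
  toFun x y := ∑ q, cc D f₁ x (y • q) * cc D f₂ y q
  assoc x y z := by
    have e : (∑ q, cc D f₁ x ((y * z) • q) * cc D f₂ y (z • q)) =
        ∑ q, cc D f₁ x (y • q) * cc D f₂ y q := by
      simp only [mul_smul]
      exact Equiv.sum_comp (MulAction.toPerm z) (fun q => cc D f₁ x (y • q) * cc D f₂ y q)
    simp only [cc_mul D, add_mul, mul_add, Finset.sum_add_distrib]
    rw [e]
    simp only [mul_smul]
    abel
  one_left x := by simp [cc_one]
  one_right x := by simp [cc_one]

omit [Fintype (G ⧸ (D.P : Subgroup G))] in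
/-- An element of `P` fixing a coset acts on it by a sign, uniformly. -/
theorem exists_sign (q : G ⧸ (D.P : Subgroup G)) :
    ∃ e : ZMod p, e * e = 1 ∧ ∀ (f : ↥(D.P : Subgroup G) →* Multiplicative (ZMod p))
      (x : ↥(D.P : Subgroup G)), x • q = q →
        cc D f (x : G) q = e * Multiplicative.toAdd (f x) := by
  have hconj : ∀ x : ↥(D.P : Subgroup G), x • q = q →
      (vv D (x : G) q : G) = q.out⁻¹ * x * q.out := by
    intro x hx
    show ((x : G) • q).out⁻¹ * (x : G) * q.out = _
    rw [show (x : G) • q = q from hx]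
  have hmul : ∀ x y : ↥(D.P : Subgroup G), x • q = q → y • q = q →
      (vv D ((x * y : ↥(D.P : Subgroup G)) : G) q : G) =
        (vv D (x : G) q : G) * (vv D (y : G) q : G) := by
    intro x y hx hy
    rw [hconj _ (by rw [mul_smul, hy, hx]), hconj x hx, hconj y hy, Subgroup.coe_mul]
    group
  have hcase : ∀ x : ↥(D.P : Subgroup G), x • q = q →
      vv D (x : G) q = x ∨ vv D (x : G) q = x⁻¹ := by
    intro x hx
    have hm : q.out⁻¹ * (x : G) * q.out⁻¹⁻¹ ∈ (D.P : Subgroup G) := by
      rw [inv_inv, ← hconj x hx]; exact SetLike.coe_mem _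
    rcases D.fus x x.2 q.out⁻¹ hm with h | h <;> rw [inv_inv, ← hconj x hx] at h
    · exact Or.inl (Subtype.ext h)
    · exact Or.inr (Subtype.ext h)
  by_cases hp : ∀ x : ↥(D.P : Subgroup G), x • q = q → vv D (x : G) q = x
  · exact ⟨1, one_mul 1, fun f x hx => by rw [one_mul, cc, hp x hx]⟩
  by_cases hm : ∀ x : ↥(D.P : Subgroup G), x • q = q → vv D (x : G) q = x⁻¹
  · exact ⟨-1, by ring, fun f x hx => by
      rw [cc, hm x hx, map_inv, toAdd_inv]; ring⟩
  exfalso
  push Not at hp hm
  obtain ⟨x, hx, hx'⟩ := hp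
  obtain ⟨y, hy, hy'⟩ := hm
  have ex : vv D (x : G) q = x⁻¹ := (hcase x hx).resolve_left hx'
  have ey : vv D (y : G) q = y := (hcase y hy).resolve_right hy'
  have exy : vv D ((x * y : ↥(D.P : Subgroup G)) : G) q = x⁻¹ * y := by
    apply Subtype.ext
    rw [hmul x y hx hy, ex, ey, Subgroup.coe_mul]
  rcases hcase (x * y) (by rw [mul_smul, hy, hx]) with h | h <;> rw [exy] at h
  · exact hx' (ex.trans (mul_right_cancel h))
  · have hc : (x * y)⁻¹ = x⁻¹ * y⁻¹ := by
      rw [mul_inv_rev]; exact Subtype.ext (D.comm _ (SetLike.coe_mem _) _ (SetLike.coe_mem _))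
    rw [hc] at h
    exact hy' (ey.trans (mul_left_cancel h))

omit [Fintype (G ⧸ (D.P : Subgroup G))] in
/-- On `P` the transfer cocycle is, up to a sign constant on orbits, a translation plus a
coboundary. -/
theorem exists_split (f₁ f₂ : ↥(D.P : Subgroup G) →* Multiplicative (ZMod p)) :
    ∃ (e s t : G ⧸ (D.P : Subgroup G) → ZMod p), (∀ q, e q * e q = 1) ∧
      (∀ (a : ↥(D.P : Subgroup G)) q, e (a • q) = e q) ∧
      (∀ (a : ↥(D.P : Subgroup G)) q, cc D f₁ (a : G) q =
        e q * (Multiplicative.toAdd (f₁ a) + s q - s (a • q))) ∧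
      ∀ (a : ↥(D.P : Subgroup G)) q, cc D f₂ (a : G) q =
        e q * (Multiplicative.toAdd (f₂ a) + t q - t (a • q)) := by
  choose e he1 he2 using exists_sign D
  let r := MulAction.orbitRel ↥(D.P : Subgroup G) (G ⧸ (D.P : Subgroup G))
  let o : G ⧸ (D.P : Subgroup G) → G ⧸ (D.P : Subgroup G) := fun q => (Quotient.mk r q).out
  have hex : ∀ q, ∃ h : ↥(D.P : Subgroup G), h • o q = q := by
    intro q
    have h1 : r.r (o q) q := Quotient.mk_out q
    have h2 : r.r q (o q) := r.symm h1
    exact MulAction.mem_orbit_iff.1 h2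
  choose h hh using hex
  have ho : ∀ (a : ↥(D.P : Subgroup G)) q, o (a • q) = o q := by
    intro a q
    exact congrArg Quotient.out (Quotient.sound (s := r) ⟨a, rfl⟩)
  have key : ∀ (f : ↥(D.P : Subgroup G) →* Multiplicative (ZMod p)) (a : ↥(D.P : Subgroup G)) q,
      cc D f (a : G) q = e (o q) * (Multiplicative.toAdd (f a)
        + (Multiplicative.toAdd (f (h q)) - e (o q) * cc D f (h q : G) (o q))
        - (Multiplicative.toAdd (f (h (a • q)))
            - e (o (a • q)) * cc D f (h (a • q) : G) (o (a • q)))) := by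
    intro f a q
    rw [ho a q]
    set y : ↥(D.P : Subgroup G) := (h (a • q))⁻¹ * a * h q with hy
    have hyq : y • o q = o q := by
      rw [hy, mul_smul, mul_smul, hh q, inv_smul_eq_iff]
      conv_rhs => rw [← ho a q]
      rw [hh]
    have e1 : cc D f ((h (a • q) * y : ↥(D.P : Subgroup G)) : G) (o q) =
        cc D f (h (a • q) : G) (o q) + cc D f (y : G) (o q) := by
      rw [Subgroup.coe_mul, cc_mul D f]
      congr 2
    have e2 : cc D f ((a * h q : ↥(D.P : Subgroup G)) : G) (o q) =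
        cc D f (a : G) q + cc D f (h q : G) (o q) := by
      rw [Subgroup.coe_mul, cc_mul D f]
      congr 2
      exact hh q
    have e3 : h (a • q) * y = a * h q := by rw [hy]; group
    rw [e3] at e1
    rw [he2 (o q) f y hyq] at e1
    have e4 : Multiplicative.toAdd (f y) = Multiplicative.toAdd (f a)
        + Multiplicative.toAdd (f (h q)) - Multiplicative.toAdd (f (h (a • q))) := by
      simp only [hy, map_mul, map_inv, toAdd_mul, toAdd_inv]; abel
    rw [e4] at e1
    have hee := he1 (o q)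
    linear_combination e1 - e2 + (cc D f (h q : G) (o q) - cc D f (h (a • q) : G) (o q)) * hee
  exact ⟨fun q => e (o q),
    fun q => Multiplicative.toAdd (f₁ (h q)) - e (o q) * cc D f₁ (h q : G) (o q),
    fun q => Multiplicative.toAdd (f₂ (h q)) - e (o q) * cc D f₂ (h q : G) (o q),
    fun q => he1 _, fun a q => congrArg e (ho a q), key f₁, key f₂⟩

/-- The commutator form of the cup product on `P`. -/
theorem cup_comm (f₁ f₂ : ↥(D.P : Subgroup G) →* Multiplicative (ZMod p))
    (a b : ↥(D.P : Subgroup G)) :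
    (cup D f₁ f₂).toFun (a : G) (b : G) - (cup D f₁ f₂).toFun (b : G) (a : G) =
      ((D.P : Subgroup G).index : ZMod p) * (Multiplicative.toAdd (f₁ a) * Multiplicative.toAdd (f₂ b)
        - Multiplicative.toAdd (f₁ b) * Multiplicative.toAdd (f₂ a)) := by
  obtain ⟨e, s, t, he, hc, h₁, h₂⟩ := exists_split D f₁ f₂
  have hterm : ∀ a b : ↥(D.P : Subgroup G), (cup D f₁ f₂).toFun (a : G) (b : G) =
      ∑ q, (Multiplicative.toAdd (f₁ a) + s (b • q) - s (a • b • q)) *
        (Multiplicative.toAdd (f₂ b) + t q - t (b • q)) := by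
    intro a b
    show (∑ q, cc D f₁ (a : G) (b • q) * cc D f₂ (b : G) q) = _
    refine Finset.sum_congr rfl fun q _ => ?_
    rw [h₁ a (b • q), h₂ b q, hc b q]
    linear_combination ((Multiplicative.toAdd (f₁ a) + s (b • q) - s (a • b • q)) *
        (Multiplicative.toAdd (f₂ b) + t q - t (b • q))) * he q
  rw [hterm a b, hterm b a, Subgroup.index_eq_card, Nat.card_eq_fintype_card]
  refine sum_shift_sub (MulAction.toPerm a) (MulAction.toPerm b) ?_ s t _ _ _ _
  intro q
  show a • b • q = b • a • q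
  rw [← mul_smul, ← mul_smul,
    show a * b = b * a from Subtype.ext (D.comm _ a.2 _ b.2)]

end Transfer

/-- A finite noncyclic abelian `p`-group maps onto `ZMod p × ZMod p`. -/
theorem exists_pair {A : Type*} [CommGroup A] [Finite A] [Fact p.Prime] (hA : IsPGroup p A)
    (hc : ¬ IsCyclic A) :
    ∃ f₁ f₂ : A →* Multiplicative (ZMod p),
      ∀ u v : ZMod p, ∃ x : A, Multiplicative.toAdd (f₁ x) = u ∧ Multiplicative.toAdd (f₂ x) = v := by
  classical
  obtain ⟨ι, hι, n, hn, ⟨eA⟩⟩ := CommGroup.equiv_prod_multiplicative_zmod_of_finite A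
  obtain ⟨k, hk⟩ := IsPGroup.iff_card.1 hA
  have hdvd : ∀ i, p ∣ n i := by
    intro i
    have h1 : n i ∣ p ^ k := by
      rw [← hk, Nat.card_congr eA.toEquiv, Nat.card_pi]
      simp only [Nat.card_congr (Multiplicative.toAdd (α := ZMod _)), Nat.card_zmod]
      exact Finset.dvd_prod_of_mem n (Finset.mem_univ i)
    obtain ⟨j, -, hj⟩ := (Nat.dvd_prime_pow Fact.out).1 h1
    rw [hj]
    refine dvd_pow_self p fun h0 => ?_
    have := hn i
    rw [hj, h0, pow_zero] at this
    exact absurd this (lt_irrefl 1)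
  have htwo : ∃ i j : ι, i ≠ j := by
    by_contra hh
    push Not at hh
    apply hc
    rcases isEmpty_or_nonempty ι with hE | ⟨⟨i⟩⟩
    · haveI : Subsingleton A := eA.toEquiv.subsingleton
      infer_instance
    · haveI : Subsingleton ι := ⟨hh⟩
      let φ : Multiplicative (ZMod (n i)) →* A :=
        eA.symm.toMonoidHom.comp (MonoidHom.mulSingle (fun i => Multiplicative (ZMod (n i))) i)
      refine isCyclic_of_surjective φ fun x => ⟨eA x i, ?_⟩
      show eA.symm (Pi.mulSingle i (eA x i)) = x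
      rw [MulEquiv.symm_apply_eq]
      funext j
      rw [Subsingleton.elim j i, Pi.mulSingle_eq_same]
  obtain ⟨i, j, hij⟩ := htwo
  let F : ∀ i, A →* Multiplicative (ZMod p) := fun i =>
    ((AddMonoidHom.toMultiplicative (ZMod.castHom (hdvd i) (ZMod p)).toAddMonoidHom).comp
      (Pi.evalMonoidHom (fun i => Multiplicative (ZMod (n i))) i)).comp eA.toMonoidHom
  refine ⟨F i, F j, fun u v => ?_⟩
  obtain ⟨u', rfl⟩ := ZMod.castHom_surjective (hdvd i) u
  obtain ⟨v', rfl⟩ := ZMod.castHom_surjective (hdvd j) v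
  refine ⟨eA.symm (Pi.mulSingle i (Multiplicative.ofAdd u') *
    Pi.mulSingle j (Multiplicative.ofAdd v')), ?_, ?_⟩
  · show ZMod.castHom (hdvd i) (ZMod p) (Multiplicative.toAdd ((eA (eA.symm _)) i)) = _
    rw [MulEquiv.apply_symm_apply, Pi.mul_apply, Pi.mulSingle_eq_same,
      Pi.mulSingle_eq_of_ne hij, mul_one, toAdd_ofAdd]
  · show ZMod.castHom (hdvd j) (ZMod p) (Multiplicative.toAdd ((eA (eA.symm _)) j)) = _
    rw [MulEquiv.apply_symm_apply, Pi.mul_apply, Pi.mulSingle_eq_same,
      Pi.mulSingle_eq_of_ne hij.symm, one_mul, toAdd_ofAdd]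

/-- A central extension of order `p` whose commutator form on `P` has radical of index `p ^ 2`. -/
theorem exists_cover (D : Setup G p) : Nonempty (Cover D) := by
  classical
  haveI : Fact p.Prime := ⟨D.hp⟩
  letI : CommGroup ↥(D.P : Subgroup G) :=
    { (inferInstance : Group ↥(D.P : Subgroup G)) with
      mul_comm := fun a b => Subtype.ext (D.comm _ a.2 _ b.2) }
  haveI : Fintype (G ⧸ (D.P : Subgroup G)) := Fintype.ofFinite _
  obtain ⟨f₁, f₂, hf⟩ := exists_pair (p := p) D.P.isPGroup' D.ncyc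
  let γ := cup D f₁ f₂
  let Φ : ↥(D.P : Subgroup G) →* Multiplicative (ZMod p) × Multiplicative (ZMod p) := f₁.prod f₂
  let R : Subgroup G := Φ.ker.map (D.P : Subgroup G).subtype
  have hR : ∀ x : ↥(D.P : Subgroup G), (x : G) ∈ R ↔
      Multiplicative.toAdd (f₁ x) = 0 ∧ Multiplicative.toAdd (f₂ x) = 0 := by
    intro x
    show (D.P : Subgroup G).subtype x ∈ Φ.ker.map (D.P : Subgroup G).subtype ↔ _
    rw [Subgroup.mem_map_iff_mem (Subgroup.subtype_injective _), MonoidHom.mem_ker,
      MonoidHom.prod_apply, Prod.ext_iff]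
    exact Iff.rfl
  have hsurj : Function.Surjective Φ := by
    rintro ⟨u, v⟩
    obtain ⟨x, h1, h2⟩ := hf (Multiplicative.toAdd u) (Multiplicative.toAdd v)
    exact ⟨x, Prod.ext h1 h2⟩
  have hn : ((D.P : Subgroup G).index : ZMod p) ≠ 0 := by
    rw [Ne, ZMod.natCast_eq_zero_iff]
    exact Sylow.not_dvd_index D.P
  have hidx : R.relIndex (D.P : Subgroup G) = p ^ 2 := by
    rw [Subgroup.relIndex, Subgroup.subgroupOf,
      Subgroup.comap_map_eq_self_of_injective (Subgroup.subtype_injective _), Subgroup.index_ker,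
      MonoidHom.range_eq_top.2 hsurj, Subgroup.card_top, Nat.card_prod,
      Nat.card_congr (Multiplicative.toAdd (α := ZMod p)), Nat.card_zmod, sq]
  have hdelta : ∀ a b : CExt γ, (ha : a.g ∈ (D.P : Subgroup G)) → (hb : b.g ∈ (D.P : Subgroup G)) →
      (a * b = b * a ↔
        Multiplicative.toAdd (f₁ ⟨_, ha⟩) * Multiplicative.toAdd (f₂ ⟨_, hb⟩)
          - Multiplicative.toAdd (f₁ ⟨_, hb⟩) * Multiplicative.toAdd (f₂ ⟨_, ha⟩) = 0) := by
    intro a b ha hb
    have h : γ.toFun a.g b.g - γ.toFun b.g a.g = _ := cup_comm D f₁ f₂ ⟨_, ha⟩ ⟨_, hb⟩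
    rw [CExt.comm_iff a b (D.comm _ ha _ hb), ← sub_eq_zero, h, mul_eq_zero]
    exact or_iff_right hn
  let eK : ZMod p ≃ (CExt.proj γ).ker :=
    { toFun := fun z => ⟨⟨z, 1⟩, rfl⟩
      invFun := fun a => a.1.z
      left_inv := fun _ => rfl
      right_inv := fun a => Subtype.ext (CExt.ext rfl (a.2 : a.1.g = 1).symm) }
  haveI : Finite (CExt γ) :=
    Finite.of_injective (fun a : CExt γ => (a.z, a.g))
      (fun a b h => CExt.ext (congrArg Prod.fst h) (congrArg Prod.snd h))
  refine ⟨{ R := R, R_le := Subgroup.map_subtype_le _, R_index := hidx, pow_mem := ?_,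
            Gh := CExt γ, π := CExt.proj γ, surj := fun g => ⟨⟨0, g⟩, rfl⟩,
            ker_le := ?_, ker_card := ?_, comm := ?_, nondeg := ?_ }⟩
  · intro x hx
    have z : ∀ f : ↥(D.P : Subgroup G) →* Multiplicative (ZMod p),
        Multiplicative.toAdd (f (⟨x, hx⟩ ^ p)) = 0 := fun f => by
      rw [map_pow, toAdd_pow, nsmul_eq_mul, ZMod.natCast_self, zero_mul]
    have h := (hR (⟨x, hx⟩ ^ p)).2 ⟨z f₁, z f₂⟩
    simpa using h
  · intro a ha
    have hg : a.g = 1 := ha
    rw [Subgroup.mem_center_iff]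
    intro b
    ext
    · simp only [CExt.mul_z, hg, γ.one_left, γ.one_right]; ring
    · simp [hg]
  · rw [← Nat.card_congr eK, Nat.card_zmod]
  · intro a b ha hb
    have haP : a.g ∈ (D.P : Subgroup G) := Subgroup.map_subtype_le _ ha
    obtain ⟨h1, h2⟩ := (hR ⟨_, haP⟩).1 ha
    rw [hdelta a b haP hb, h1, h2]; ring
  · intro a ha hna
    by_cases h1 : Multiplicative.toAdd (f₁ ⟨a.g, ha⟩) = 0
    · obtain ⟨x, hx1, hx2⟩ := hf 1 0
      refine ⟨⟨0, x⟩, x.2, fun h => hna ((hR ⟨_, ha⟩).2 ⟨h1, ?_⟩)⟩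
      have h' := (hdelta a ⟨0, x⟩ ha x.2).1 h
      rw [Subtype.coe_eta, hx1, hx2] at h'
      show Multiplicative.toAdd (f₂ ⟨a.g, ha⟩) = 0
      linear_combination -h'
    · obtain ⟨x, hx1, hx2⟩ := hf 0 1
      refine ⟨⟨0, x⟩, x.2, fun h => h1 ?_⟩
      have h' := (hdelta a ⟨0, x⟩ ha x.2).1 h
      rw [Subtype.coe_eta, hx1, hx2] at h'
      linear_combination h'

end Cfsg.Agent.H50.SmithTyrer
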